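import Cfsg.Agent.H661.SC.NonPrin
import Cfsg.Agent.Nodes.NormalForm
import Cfsg.Agent.Nodes.Closure
import Cfsg.Agent.H428.NBL.Eng
import Cfsg.Agent.KFacts.RgdRigid

/-!
# Centralisers of 2-subgroups in groups with a root group datum of type `G₂` (helper287, for S4526)

* `noCent_of_sub` : `NoCent 2 G` from a 2-subgroup whose centraliser has only elements of 2-power order;
* `pow_four` : `z 0, z 1 ∈ T` the involutions of the torus, `m` a representative of `-1` inverting `T`; an element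
  commuting with `z 0, z 1, m` has order dividing 4;
* `noCent_two`.
-/

set_option autoImplicit false
set_option linter.unusedSectionVars false

namespace Cfsg.Agent.H287.SC

open CoxeterSystem Cfsg.Agent.ChevalleyStructure.CoxeterGeom Cfsg.Agent.Tits.Roots Cfsg.Agent.Tits.Core
  Cfsg.Agent.Tits.RootComb Cfsg.Agent.Tits.Exchange Cfsg.Agent.Nodes.Reps Cfsg.Agent.Nodes.BNOf
  Cfsg.Agent.Nodes.StabComb Cfsg.Agent.Nodes.Bruhat Cfsg.Agent.Nodes.NormalForm
open Cfsg.Agent.H625.SylConst Cfsg.Agent.H661.SC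

section Gen

variable {G : Type*} [Group G] [Finite G]

/-- `NoCent 2 G` from one 2-subgroup -/
theorem noCent_of_sub {Q : Subgroup G} (hQ : IsPGroup 2 Q)
    (hC : ∀ u : G, (∀ x ∈ Q, x * u = u * x) → ∃ k, u ^ 2 ^ k = 1) : NoCent 2 G := by
  have : Fact (Nat.Prime 2) := ⟨Nat.prime_two⟩
  intro g hg hle
  set C := Subgroup.centralizer ({g} : Set G) with hCdef
  obtain ⟨S⟩ : Nonempty (Sylow 2 ↥C) := inferInstance
  obtain ⟨S', hS'⟩ := hQ.exists_le_sylow
  -- the image of `S` is a Sylow subgroup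
  have h1 : Nat.card ↥((S : Subgroup ↥C).map C.subtype) = 2 ^ (Nat.card ↥C).factorization 2 := by
    rw [Nat.card_congr ((S : Subgroup ↥C).equivMapOfInjective C.subtype C.subtype_injective).symm.toEquiv]
    exact S.card_eq_multiplicity
  have h2 : (Nat.card ↥C).factorization 2 ≤ (Nat.card G).factorization 2 :=
    (Nat.factorization_le_iff_dvd Nat.card_pos.ne' Nat.card_pos.ne').2 (Subgroup.card_subgroup_dvd_card C) 2
  have h3 : (Nat.card ↥C).factorization 2 = (Nat.card G).factorization 2 := le_antisymm h2 hle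
  rw [h3] at h1
  let S'' : Sylow 2 G := Sylow.ofCard ((S : Subgroup ↥C).map C.subtype) h1
  obtain ⟨c, hc⟩ := MulAction.exists_smul_eq G S'' S'
  have h4 : ∀ x ∈ Q, x * (c * g * c⁻¹) = c * g * c⁻¹ * x := by
    intro x hx
    have h5 : x ∈ (S' : Subgroup G) := hS' hx
    rw [← hc, Sylow.coe_subgroup_smul] at h5
    obtain ⟨y, hy, rfl⟩ := h5
    obtain ⟨⟨y', hy'⟩, -, rfl⟩ := hy
    have h6 : y' * g = g * y' := Subgroup.mem_centralizer_singleton_iff.1 hy'
    show c * y' * c⁻¹ * (c * g * c⁻¹) = c * g * c⁻¹ * (c * y' * c⁻¹)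
    calc c * y' * c⁻¹ * (c * g * c⁻¹) = c * (y' * g) * c⁻¹ := by group
      _ = c * g * c⁻¹ * (c * y' * c⁻¹) := by rw [h6]; group
  obtain ⟨k, hk⟩ := hC _ h4
  rw [conj_pow] at hk
  have h7 : g ^ 2 ^ k = 1 := by
    have h8 : c * g ^ 2 ^ k * c⁻¹ = 1 := hk
    have h9 : g ^ 2 ^ k = c⁻¹ * (c * g ^ 2 ^ k * c⁻¹) * c := by group
    rw [h9, h8]; group
  have h8 : orderOf g ∣ 2 ^ k := orderOf_dvd_of_pow_eq_one h7
  have h9 : Nat.Coprime (orderOf g) (2 ^ k) :=
    Nat.Coprime.pow_right k (((Nat.Prime.coprime_iff_not_dvd Nat.prime_two).2 hg).symm)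
  exact orderOf_eq_one_iff.1 (Nat.eq_one_of_dvd_coprimes h9 dvd_rfl h8)

/-- a subgroup generated by commuting elements of order dividing 4 -/
theorem isPGroup_closure {S : Set G} (hc : ∀ x ∈ S, ∀ y ∈ S, x * y = y * x) (h4 : ∀ x ∈ S, x ^ 4 = 1) :
    IsPGroup 2 ↥(Subgroup.closure S) := by
  have hcomm : ∀ x ∈ Subgroup.closure S, ∀ y ∈ Subgroup.closure S, x * y = y * x := by
    have h1 : Subgroup.closure S ≤ Subgroup.centralizer (Subgroup.closure S : Set G) := by
      rw [Subgroup.centralizer_closure, Subgroup.closure_le]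
      intro x hx
      exact Subgroup.mem_centralizer_iff.2 fun y hy => hc y hy x hx
    intro x hx y hy
    exact (Subgroup.mem_centralizer_iff.1 (h1 hx) y hy).symm
  have h5 : ∀ x (_ : x ∈ Subgroup.closure S), x ^ 4 = 1 := by
    intro x hx
    induction hx using Subgroup.closure_induction with
    | mem x hx => exact h4 x hx
    | one => exact one_pow _
    | mul x y hx hy ihx ihy =>
      rw [(show Commute x y from hcomm x hx y hy).mul_pow, ihx, ihy, one_mul]
    | inv x hx ih => rw [inv_pow, ih, inv_one]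
  intro x
  refine ⟨2, Subtype.ext ?_⟩
  have := h5 x x.2
  simpa using this

end Gen

section Rgd

variable {Y W : Type*} [Group Y] [Finite Y] [Group W] [Finite W] {M : CoxeterMatrix (Fin 2)}
  {cs : CoxeterSystem M W} {A : Fin 2 → Fin 2 → ℤ} {h : IsCartan M A} {r : ℕ} {T : Subgroup Y} {n : Fin 2 → Y}
  {X : (Fin 2 → ℤ) → Subgroup Y}

/-- an element of odd order of an `r`-group -/
theorem eq_one_of_inv {x : Y} (hr2 : r ≠ 2) [hr : Fact r.Prime] (R : RGD cs h r T n X) {a : Fin 2 → ℤ}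
    (ha : IsRoot cs h a) (hx : x ∈ X a) (h1 : x = x⁻¹) : x = 1 := by
  have h2 : x ^ 2 ^ 1 = 1 := by
    rw [pow_one, pow_two]
    nth_rewrite 2 [h1]
    exact mul_inv_cancel x
  have : Fact (Nat.Prime 2) := ⟨Nat.prime_two⟩
  exact H428.NBL.eq_one_of_pGroup (p := 2) (r := r) (Ne.symm hr2) (H428.NBL.isPGroup_X R ha) hx h2

/-- the data -/
structure FourData (R : RGD cs h r T n X) (L : List (Fin 2 → ℤ)) (z : Fin 2 → Y) (m : Y) (w₀ : W) : Prop where
  root : ∀ a, IsRoot cs h a → a ∈ L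
  root' : ∀ a ∈ L, IsRoot cs h a
  odd : ∀ a ∈ L, ¬ Even (a 0) ∨ ¬ Even (a 1)
  comb : ∀ x ∈ L, ∀ y ∈ L, (∀ i, Even (x i - (sr 0 : Fin 2 → ℤ) i)) → (∀ i, Even (y i - (sr 1 : Fin 2 → ℤ) i)) →
    (∀ a ∈ L, a 0 • x + a 1 • y ∈ L) → (x = sr 0 ∧ y = sr 1) ∨ (x = -sr 0 ∧ y = -sr 1)
  neg : ∀ i, rep cs h w₀ (sr i) = -sr i
  memT : ∀ i, z i ∈ T
  sq : ∀ i, z i * z i = 1
  even : ∀ i a, IsRoot cs h a → Even (a i) → ∀ x ∈ X a, z i * x * (z i)⁻¹ = x
  odd' : ∀ i a, IsRoot cs h a → ¬ Even (a i) → ∀ x ∈ X a, z i * x * (z i)⁻¹ = x⁻¹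
  rp : Rp cs R.nsys w₀ m
  inv : ∀ t ∈ T, m * t * m⁻¹ = t⁻¹

variable {R : RGD cs h r T n X} {L : List (Fin 2 → ℤ)} {z : Fin 2 → Y} {m : Y} {w₀ : W}

theorem pow_four (D : FourData R L z m w₀) [hr : Fact r.Prime] (hr2 : r ≠ 2) (hG : GG cs h T X = ⊤) {u : Y}
    (hz : ∀ i, z i * u = u * z i) (hm : m * u = u * m) : u ^ 4 = 1 := by
  -- the root groups
  have hbot : ∀ a, IsRoot cs h a → X a ⊓ Subgroup.centralizer (Set.range z) = ⊥ := by
    intro a ha
    rw [eq_bot_iff]
    rintro x ⟨hx, hxc⟩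
    rw [Subgroup.mem_bot]
    have hc : ∀ i, z i * x * (z i)⁻¹ = x := fun i => by
      rw [mul_inv_eq_iff_eq_mul]
      exact Subgroup.mem_centralizer_iff.1 hxc _ ⟨i, rfl⟩
    rcases D.odd a (D.root a ha) with h1 | h1
    · exact eq_one_of_inv hr2 R ha hx ((hc 0).symm.trans (D.odd' 0 a ha h1 x hx))
    · exact eq_one_of_inv hr2 R ha hx ((hc 1).symm.trans (D.odd' 1 a ha h1 x hx))
  have hS : Set.range z ⊆ T := by
    rintro _ ⟨i, rfl⟩
    exact D.memT i
  have hsup : ∀ v ∈ RGD.Sup (fun x => X x ⊓ Subgroup.centralizer (Set.range z)) (RGD.Pos cs h), v = 1 := by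
    intro v hv
    have h1 : RGD.Sup (fun x => X x ⊓ Subgroup.centralizer (Set.range z)) (RGD.Pos cs h) ≤ ⊥ :=
      RGD.Sup_le fun x hx => (hbot x hx.1).le
    exact Subgroup.mem_bot.1 (h1 hv)
  have huc : u ∈ Subgroup.centralizer (Set.range z) := by
    rw [Subgroup.mem_centralizer_iff]
    rintro _ ⟨i, rfl⟩
    exact hz i
  obtain ⟨u₁, hu₁, w, k, hk, hkc, v, hv, rfl⟩ := mem_centralizer R hS (by rw [hG]; exact Subgroup.mem_top u) huc
  have e1 := hsup u₁ hu₁
  have e2 := hsup v hv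
  subst e1 e2
  rw [one_mul, mul_one] at hm hz ⊢
  clear hu₁ hv huc
  -- parity
  have hpar : ∀ a, IsRoot cs h a → ∀ i, Even (rep cs h w a i - a i) := by
    intro a ha i
    obtain ⟨⟨x, hx⟩, hx1⟩ := (Subgroup.ne_bot_iff_exists_ne_one).1 (X_ne_bot R ha)
    have hx1' : x ≠ 1 := fun h0 => hx1 (Subtype.ext h0)
    have hkx : k * x * k⁻¹ ∈ X (rep cs h w a) := R.conj_mem hk ha hx
    have hkx1 : k * x * k⁻¹ ≠ 1 := fun h0 => hx1' (by
      have h1 : x = k⁻¹ * (k * x * k⁻¹) * k := by group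
      rw [h1, h0]; group)
    have hzk := hz i
    have e3 : z i * (k * x * k⁻¹) * (z i)⁻¹ = k * (z i * x * (z i)⁻¹) * k⁻¹ := by
      have h1 : (z i)⁻¹ * k⁻¹ = k⁻¹ * (z i)⁻¹ := by
        rw [← mul_inv_rev, ← mul_inv_rev, hzk]
      have h2 : z i * (k * x * k⁻¹) * (z i)⁻¹ = z i * k * x * (k⁻¹ * (z i)⁻¹) := by group
      rw [h2, hzk, ← h1]; group
    by_cases h1 : Even (a i)
    · by_cases h2 : Even (rep cs h w a i)
      · exact h2.sub h1
      · exfalso
        rw [D.even i a ha h1 x hx, D.odd' i _ (ha.act w) h2 _ hkx] at e3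
        exact hkx1 (eq_one_of_inv hr2 R (ha.act w) hkx e3.symm)
    · by_cases h2 : Even (rep cs h w a i)
      · exfalso
        rw [D.odd' i a ha h1 x hx, D.even i _ (ha.act w) h2 _ hkx] at e3
        refine hkx1 (eq_one_of_inv hr2 R (ha.act w) hkx (e3.trans ?_))
        group
      · rw [Int.not_even_iff_odd] at h1 h2
        exact h2.sub_odd h1
  have hcomb := D.comb (rep cs h w (sr 0)) (D.root _ ((isRoot_sr cs h 0).act w)) (rep cs h w (sr 1))
    (D.root _ ((isRoot_sr cs h 1).act w)) (hpar _ (isRoot_sr cs h 0)) (hpar _ (isRoot_sr cs h 1)) (by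
      intro a ha
      have h1 := Nodes.rep_eq_sum (cs := cs) (h := h) w a
      rw [Fin.sum_univ_two] at h1
      rw [← h1]
      exact D.root _ ((D.root' a ha).act w))
  have hmm : w₀ * w₀ = 1 := by
    apply eq_one_of_fix cs h
    intro i
    show rep cs h (w₀ * w₀) (sr i) = sr i
    rw [rep_mul_apply, D.neg, map_neg, D.neg, neg_neg]
  rcases hcomb with ⟨h1, h2⟩ | ⟨h1, h2⟩
  · -- `k ∈ T`
    have hw : w = 1 := by
      apply eq_one_of_fix cs h
      intro i
      fin_cases i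
      · exact h1
      · exact h2
    subst hw
    have hkT := hk.mem_of_one
    have h3 := D.inv k hkT
    rw [hm, mul_inv_cancel_right] at h3
    have h4 : k ^ 2 = 1 := by
      rw [pow_two]
      nth_rewrite 2 [h3]
      exact mul_inv_cancel k
    calc k ^ 4 = (k ^ 2) ^ 2 := by rw [← pow_mul]
      _ = 1 := by rw [h4, one_pow]
  · -- `k ∈ m T`
    have hw : w₀ * w = 1 := by
      apply eq_one_of_fix cs h
      intro i
      show rep cs h (w₀ * w) (sr i) = sr i
      rw [rep_mul_apply]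
      fin_cases i
      · show rep cs h w₀ (rep cs h w (sr 0)) = sr 0
        rw [h1, map_neg, D.neg, neg_neg]
      · show rep cs h w₀ (rep cs h w (sr 1)) = sr 1
        rw [h2, map_neg, D.neg, neg_neg]
    have h3 : m * k ∈ T := by
      have h4 := D.rp.mul hk
      rw [hw] at h4
      exact h4.mem_of_one
    have h4 : m * m ∈ T := by
      have h5 := D.rp.mul D.rp
      rw [hmm] at h5
      exact h5.mem_of_one
    have h5 : (m * m) ^ 2 = 1 := by
      have h6 := D.inv _ h4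
      have h7 : m * (m * m) * m⁻¹ = m * m := by group
      rw [h7] at h6
      rw [pow_two]
      nth_rewrite 2 [h6]
      exact mul_inv_cancel _
    have h6 : (m * k) ^ 2 = 1 := by
      have h6 := D.inv _ h3
      have h7 : m * (m * k) * m⁻¹ = m * k := by
        calc m * (m * k) * m⁻¹ = m * (k * m) * m⁻¹ := by rw [hm]
          _ = m * k := by group
      rw [h7] at h6
      rw [pow_two]
      nth_rewrite 2 [h6]
      exact mul_inv_cancel _
    have hcm : Commute m k := hm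
    have h7 : k ^ 2 = (m * m)⁻¹ := by
      rw [hcm.mul_pow] at h6
      rw [← pow_two]
      exact eq_inv_of_mul_eq_one_right h6
    calc k ^ 4 = (k ^ 2) ^ 2 := by rw [← pow_mul]
      _ = 1 := by rw [h7, inv_pow, h5, inv_one]

/-- **No element of odd order centralises a Sylow 2-subgroup.** -/
theorem noCent_two (D : FourData R L z m w₀) [hr : Fact r.Prime] (hr2 : r ≠ 2) (hG : GG cs h T X = ⊤) :
    NoCent 2 Y := by
  have hT : ∀ x ∈ T, ∀ y ∈ T, x * y = y * x := by
    intro x hx y hy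
    have h1 := D.inv _ (mul_mem hx hy)
    have h2 : m * (x * y) * m⁻¹ = (m * x * m⁻¹) * (m * y * m⁻¹) := by group
    rw [h2, D.inv x hx, D.inv y hy, ← mul_inv_rev] at h1
    exact (inv_injective h1).symm
  have hmz : ∀ i, m * z i = z i * m := by
    intro i
    have h1 := D.inv _ (D.memT i)
    have h2 : (z i)⁻¹ = z i := by
      rw [inv_eq_iff_mul_eq_one]; exact D.sq i
    rw [h2] at h1
    exact mul_inv_eq_iff_eq_mul.1 h1
  have hmm : w₀ * w₀ = 1 := by
    apply eq_one_of_fix cs h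
    intro i
    show rep cs h (w₀ * w₀) (sr i) = sr i
    rw [rep_mul_apply, D.neg, map_neg, D.neg, neg_neg]
  have h4 : m * m ∈ T := by
    have h5 := D.rp.mul D.rp
    rw [hmm] at h5
    exact h5.mem_of_one
  have hm4 : m ^ 4 = 1 := by
    have h6 := D.inv _ h4
    have h7 : m * (m * m) * m⁻¹ = m * m := by group
    rw [h7] at h6
    have h8 : (m * m) * (m * m) = 1 := by
      nth_rewrite 2 [h6]
      exact mul_inv_cancel _
    calc m ^ 4 = (m * m) * (m * m) := by simp [pow_succ, mul_assoc]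
      _ = 1 := h8
  refine noCent_of_sub (Q := Subgroup.closure (Set.range z ∪ {m})) (isPGroup_closure ?_ ?_) ?_
  · rintro x (⟨i, rfl⟩ | hx) y (⟨j, rfl⟩ | hy)
    · exact hT _ (D.memT i) _ (D.memT j)
    · rw [Set.mem_singleton_iff] at hy
      subst hy
      exact (hmz i).symm
    · rw [Set.mem_singleton_iff] at hx
      subst hx
      exact hmz j
    · rw [Set.mem_singleton_iff] at hx hy
      rw [hx, hy]
  · rintro x (⟨i, rfl⟩ | hx)
    · calc z i ^ 4 = (z i * z i) * (z i * z i) := by simp [pow_succ, mul_assoc]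
        _ = 1 := by rw [D.sq, one_mul]
    · rw [Set.mem_singleton_iff] at hx
      rw [hx]; exact hm4
  · intro u hu
    refine ⟨2, ?_⟩
    have h8 := pow_four D hr2 hG (u := u) (fun i => hu _ (Subgroup.subset_closure (Or.inl ⟨i, rfl⟩)))
      (hu _ (Subgroup.subset_closure (Or.inr rfl)))
    simpa using h8

end Rgd

end Cfsg.Agent.H287.SC
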